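import Cfsg.Agent.H449.Reg.Real
import Cfsg.Agent.H198.SympGamma
import Cfsg.Agent.LieClassical.SympCenter
import Cfsg.Agent.LieClassical.SympPerfect

/-!
# S3691: the frame for the symplectic groups (helper925)

* `Isos B` : the isometries of a bilinear form, as a subgroup of `V ≃ₗ[F] V`
* `spE` : `symplecticGroup (Fin m) F ≃* Isos (sympBilin m F)`
* `real` : `Real T (Isos (sympBilin m F))` (helper449) from `e : T ≃* PSp m F`
* `preS e X` : the preimage of `X ∩ T`; `mem_preS`, `card_preS`, `not_le_preS`, `exists_pow`, `exists_prime`, `inv0_iff'`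
* `trans_vec`, `trans_hyp` : transitivity of `Sp`
-/

set_option autoImplicit false
set_option linter.unusedSectionVars false

namespace Cfsg.Agent.H925.Rs

open Cfsg Matrix Module Subgroup Cfsg.Agent.H454.Reg Cfsg.Agent.H449.Reg Cfsg.Agent.ClassicalGeometry.SympBasic
  Cfsg.Agent.ClassicalGeometry.SympAutSemi

universe u v

section iso

variable {F : Type*} [Field F] {V : Type*} [AddCommGroup V] [Module F V]

/-- the isometries of a bilinear form -/
def Isos (B : LinearMap.BilinForm F V) : Subgroup (V ≃ₗ[F] V) where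
  carrier := {x | ∀ u v, B (x u) (x v) = B u v}
  mul_mem' := by
    intro x y hx hy u v
    change B (x (y u)) (x (y v)) = _
    rw [hx, hy]
  one_mem' := fun _ _ => rfl
  inv_mem' := by
    intro x hx u v
    have e : ∀ w, x (x⁻¹ w) = w := fun w => x.apply_symm_apply w
    rw [← hx (x⁻¹ u) (x⁻¹ v), e, e]

theorem mem_Isos {B : LinearMap.BilinForm F V} {x : V ≃ₗ[F] V} : x ∈ Isos B ↔ ∀ u v, B (x u) (x v) = B u v := Iff.rfl

/-- an additive bijection mapping every vector to a multiple of itself is a scalar -/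
theorem scalar_of_lines {M : V → V} (hadd : ∀ u v, M (u + v) = M u + M v) (h : ∀ v, ∃ a : F, M v = a • v)
    {u₀ v₀ : V} (hind : ∀ a b : F, a • u₀ + b • v₀ = 0 → a = 0 ∧ b = 0) : ∃ a : F, ∀ v, M v = a • v := by
  choose a ha using h
  have hu₀ : u₀ ≠ 0 := by
    rintro rfl
    have := (hind 1 0 (by rw [smul_zero, zero_smul, add_zero])).1
    exact one_ne_zero this
  have hv₀ : v₀ ≠ 0 := by
    rintro rfl
    have := (hind 0 1 (by rw [smul_zero, zero_smul, add_zero])).2
    exact one_ne_zero this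
  -- independent vectors have the same scalar
  have key : ∀ u v : V, (∀ x y : F, x • u + y • v = 0 → x = 0 ∧ y = 0) → a u = a v := by
    intro u v huv
    have h1 := hadd u v
    rw [ha (u + v), ha u, ha v, smul_add] at h1
    have h2 : (a (u + v) - a u) • u + (a (u + v) - a v) • v = 0 := by
      rw [sub_smul, sub_smul]
      have h3 : a (u + v) • u + a (u + v) • v - (a u • u + a v • v) = 0 := sub_eq_zero.2 h1
      rw [← h3]; abel
    obtain ⟨h3, h4⟩ := huv _ _ h2
    rw [sub_eq_zero] at h3 h4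
    exact h3.symm.trans h4
  refine ⟨a u₀, fun v => ?_⟩
  by_cases hv : v = 0
  · subst hv
    rw [ha 0, smul_zero, smul_zero]
  rw [ha v]
  congr 1
  by_cases h1 : ∀ x y : F, x • v + y • u₀ = 0 → x = 0 ∧ y = 0
  · exact key v u₀ h1
  · -- `v` is a multiple of `u₀`
    push Not at h1
    obtain ⟨x, y, hxy, hne⟩ := h1
    have hx : x ≠ 0 := by
      rintro rfl
      rw [zero_smul, zero_add] at hxy
      rcases smul_eq_zero.1 hxy with h2 | h2
      · exact hne rfl h2
      · exact hu₀ h2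
    have hy : v = (-(x⁻¹ * y)) • u₀ := by
      have h2 : x • v = -(y • u₀) := eq_neg_of_add_eq_zero_left hxy
      have h3 : v = x⁻¹ • (x • v) := by rw [smul_smul, inv_mul_cancel₀ hx, one_smul]
      rw [h3, h2, smul_neg, smul_smul, neg_smul]
    have hc : (-(x⁻¹ * y)) ≠ 0 := by
      intro h2
      rw [h2, zero_smul] at hy
      exact hv hy
    have h2 : a v = a v₀ := by
      apply key
      intro s t hst
      rw [hy, smul_smul] at hst
      obtain ⟨h3, h4⟩ := hind _ _ hst
      exact ⟨(mul_eq_zero.1 h3).resolve_right hc, h4⟩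
    rw [h2]
    exact (key u₀ v₀ hind).symm

end iso

section frame

variable {F : Type v} [Field F] {m : ℕ}

/-- a symplectic matrix as a linear automorphism -/
def toE (A : symplecticGroup (Fin m) F) : (Fin m ⊕ Fin m → F) ≃ₗ[F] (Fin m ⊕ Fin m → F) where
  toFun v := (A : Matrix (Fin m ⊕ Fin m) (Fin m ⊕ Fin m) F) *ᵥ v
  map_add' u v := Matrix.mulVec_add _ _ _
  map_smul' c v := Matrix.mulVec_smul _ _ _
  invFun v := ((A⁻¹ : symplecticGroup (Fin m) F) : Matrix (Fin m ⊕ Fin m) (Fin m ⊕ Fin m) F) *ᵥ v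
  left_inv v := by
    change ((A⁻¹ : symplecticGroup (Fin m) F) : Matrix (Fin m ⊕ Fin m) (Fin m ⊕ Fin m) F) *ᵥ
      ((A : Matrix (Fin m ⊕ Fin m) (Fin m ⊕ Fin m) F) *ᵥ v) = v
    rw [← coe_mul_mulVec, inv_mul_cancel, Submonoid.coe_one, Matrix.one_mulVec]
  right_inv v := by
    change (A : Matrix (Fin m ⊕ Fin m) (Fin m ⊕ Fin m) F) *ᵥ
      (((A⁻¹ : symplecticGroup (Fin m) F) : Matrix (Fin m ⊕ Fin m) (Fin m ⊕ Fin m) F) *ᵥ v) = v
    rw [← coe_mul_mulVec, mul_inv_cancel, Submonoid.coe_one, Matrix.one_mulVec]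

theorem toE_apply (A : symplecticGroup (Fin m) F) (v : Fin m ⊕ Fin m → F) :
    toE A v = (A : Matrix (Fin m ⊕ Fin m) (Fin m ⊕ Fin m) F) *ᵥ v := rfl

/-- the hom -/
def toI (m : ℕ) (F : Type v) [Field F] : symplecticGroup (Fin m) F →* Isos (sympBilin m F) where
  toFun A := ⟨toE A, fun u v => sympForm_mulVec A.2 u v⟩
  map_one' := by
    apply Subtype.ext
    apply LinearEquiv.ext
    intro v
    change ((1 : symplecticGroup (Fin m) F) : Matrix (Fin m ⊕ Fin m) (Fin m ⊕ Fin m) F) *ᵥ v = v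
    rw [Submonoid.coe_one, Matrix.one_mulVec]
  map_mul' A C := by
    apply Subtype.ext
    apply LinearEquiv.ext
    intro v
    exact coe_mul_mulVec A C v

theorem toI_bijective : Function.Bijective (toI m F) := by
  constructor
  · intro A C h
    apply rho_injective
    apply Equiv.ext
    intro v
    exact congrArg (fun z : Isos (sympBilin m F) => z.1 v) h
  · rintro ⟨x, hx⟩
    obtain ⟨A, hA⟩ := exists_rho_eq x.toEquiv (fun u v => map_add x u v) (fun a v => map_smul x a v) fun u v => hx u v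
    refine ⟨A, Subtype.ext (LinearEquiv.ext fun v => ?_)⟩
    exact congrArg (fun z : Equiv.Perm (Fin m ⊕ Fin m → F) => z v) hA

/-- **`Sp` as isometries** -/
noncomputable def spE : symplecticGroup (Fin m) F ≃* Isos (sympBilin m F) := MulEquiv.ofBijective (toI m F) toI_bijective

theorem spE_apply (A : symplecticGroup (Fin m) F) (v : Fin m ⊕ Fin m → F) :
    (spE A).1 v = (A : Matrix (Fin m ⊕ Fin m) (Fin m ⊕ Fin m) F) *ᵥ v := rfl

theorem spE_symm_apply (x : Isos (sympBilin m F)) (v : Fin m ⊕ Fin m → F) :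
    ((spE.symm x : symplecticGroup (Fin m) F) : Matrix (Fin m ⊕ Fin m) (Fin m ⊕ Fin m) F) *ᵥ v = x.1 v := by
  rw [← spE_apply, MulEquiv.apply_symm_apply]

variable {G : Type u} [Group G] {T : Subgroup G}

/-- the projection `Sp → T` -/
noncomputable def prS (e : T ≃* PSp m F) : Isos (sympBilin m F) →* T :=
  (e.symm.toMonoidHom.comp (QuotientGroup.mk' _)).comp spE.symm.toMonoidHom

theorem prS_apply (e : T ≃* PSp m F) (x : Isos (sympBilin m F)) : prS e x = e.symm (QuotientGroup.mk (spE.symm x)) := rfl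

theorem prS_surjective (e : T ≃* PSp m F) : Function.Surjective (prS e) := by
  intro t
  obtain ⟨A, hA⟩ := QuotientGroup.mk_surjective (e t)
  refine ⟨spE A, ?_⟩
  rw [prS_apply, MulEquiv.symm_apply_apply, hA, MulEquiv.symm_apply_apply]

theorem prS_eq_one {e : T ≃* PSp m F} {x : Isos (sympBilin m F)} (h : prS e x = 1) : ∃ a : F, ∀ v, x.1 v = a • v := by
  rw [prS_apply, EmbeddingLike.map_eq_one_iff, QuotientGroup.eq_one_iff, LieClassical.SympCenter.mem_center_iff] at h
  obtain ⟨a, ha⟩ := h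
  refine ⟨a, fun v => ?_⟩
  rw [← spE_symm_apply, ha, Matrix.smul_mulVec, Matrix.one_mulVec]

theorem prS_scalar {e : T ≃* PSp m F} {x : Isos (sympBilin m F)} {a : F} (h : ∀ v, x.1 v = a • v) : prS e x = 1 := by
  rw [prS_apply, EmbeddingLike.map_eq_one_iff, QuotientGroup.eq_one_iff, LieClassical.SympCenter.mem_center_iff]
  refine ⟨a, ?_⟩
  rw [← Matrix.mulVec_injective.eq_iff]
  funext v
  change ((spE.symm x : symplecticGroup (Fin m) F) : Matrix (Fin m ⊕ Fin m) (Fin m ⊕ Fin m) F) *ᵥ v = _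
  rw [spE_symm_apply, h, Matrix.smul_mulVec, Matrix.one_mulVec]

/-- the scalars in `Sp` have square one -/
theorem sq_one_of_scalar (hm : 1 ≤ m) {x : Isos (sympBilin m F)} {a : F} (h : ∀ v, x.1 v = a • v) : x ^ 2 = 1 := by
  have h1 := x.2 (Pi.single (Sum.inr ⟨0, hm⟩) 1) (Pi.single (Sum.inl ⟨0, hm⟩) 1)
  rw [h, h, sympBilin_apply, sympBilin_apply, sympForm_smul_left, sympForm_smul_right, sympForm_single_inr_left,
    Pi.single_eq_same, mul_one] at h1
  apply Subtype.ext
  apply LinearEquiv.ext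
  intro v
  rw [pow_two]
  change x.1 (x.1 v) = v
  rw [h, h, smul_smul, h1, one_smul]

/-- the perfectness of `Sp` -/
theorem perfect [Fintype F] (hm : 3 ≤ m) : commutator ↥(Isos (sympBilin m F)) = ⊤ := by
  have h1 := LieClassical.SympPerfect.commutator_eq_top (F := F) (m := m) (Or.inl hm)
  have h3 : (⊤ : Subgroup (symplecticGroup (Fin m) F)).map (spE (F := F) (m := m)).toMonoidHom = ⊤ :=
    Subgroup.map_top_of_surjective _ (MulEquiv.surjective (spE (F := F) (m := m)))
  have h2 : (commutator (symplecticGroup (Fin m) F)).map (spE (F := F) (m := m)).toMonoidHom = commutator ↥(Isos (sympBilin m F)) := by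
    rw [commutator_def, commutator_def, Subgroup.map_commutator, h3]
  rw [← h2, h1, h3]

/-- the transvections -/
noncomputable def tvE (v : Fin m ⊕ Fin m → F) (c : F) : Isos (sympBilin m F) := spE (transv v c)

theorem tvE_apply (v x : Fin m ⊕ Fin m → F) (c : F) : (tvE v c).1 x = x + (c * sympForm m F x v) • v :=
  sympTransvection_mulVec v x c

theorem comm_scalar [Fintype F] (hm : 3 ≤ m) (M : Semi F (Fin m ⊕ Fin m → F))
    (h : ∀ x : Isos (sympBilin m F), ∃ c : F, ∀ v, M.1 (x.1 v) = c • x.1 (M.1 v)) : ∃ a : F, a ≠ 0 ∧ ∀ v, M.1 v = a • v := by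
  have hcomm := commute_of_perfect (perfect hm) h
  obtain ⟨σ, hadd, hs⟩ := M.2
  have hline : ∀ v, ∃ a : F, M.1 v = a • v := by
    intro v
    by_cases hv : v = 0
    · refine ⟨0, ?_⟩
      subst hv
      have h0 := hs 0 0
      rw [zero_smul] at h0
      rw [h0, map_zero σ, zero_smul, zero_smul]
    obtain ⟨x, hx⟩ : ∃ x, sympForm m F x v ≠ 0 := by
      by_contra hcon
      push Not at hcon
      exact hv (eq_zero_of_forall_sympForm_left hcon)
    have h1 := hcomm (tvE v 1) x
    rw [tvE_apply, tvE_apply, hadd, hs, add_right_inj, one_mul, one_mul] at h1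
    have h2 : σ (sympForm m F x v) ≠ 0 := fun h0 => hx ((map_eq_zero σ).1 h0)
    refine ⟨(σ (sympForm m F x v))⁻¹ * sympForm m F (M.1 x) v, ?_⟩
    rw [mul_smul, ← h1, smul_smul, inv_mul_cancel₀ h2, one_smul]
  obtain ⟨a, ha⟩ := scalar_of_lines (M := M.1) hadd hline
    (u₀ := Pi.single (Sum.inr ⟨0, by omega⟩) 1) (v₀ := Pi.single (Sum.inl ⟨0, by omega⟩) 1) (by
      intro a b hab
      have h1 := congrFun hab (Sum.inr ⟨0, by omega⟩)
      have h2 := congrFun hab (Sum.inl ⟨0, by omega⟩)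
      simp only [Pi.add_apply, Pi.smul_apply, Pi.zero_apply, smul_eq_mul, Pi.single_eq_same, mul_one, Pi.single_eq_of_ne
        (Sum.inr_ne_inl), Pi.single_eq_of_ne (Sum.inl_ne_inr), mul_zero, add_zero, zero_add] at h1 h2
      exact ⟨h1, h2⟩)
  refine ⟨a, ?_, ha⟩
  rintro rfl
  have h1 : M.1 (Pi.single (Sum.inr ⟨0, by omega⟩) 1) = M.1 0 := by rw [ha, ha, zero_smul, zero_smul]
  have h2 := M.1.injective h1
  have h3 := congrFun h2 (Sum.inr ⟨0, by omega⟩)
  rw [Pi.single_eq_same, Pi.zero_apply] at h3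
  exact one_ne_zero h3

/-- every element of `G` is induced by a semisimilitude -/
theorem induces [Fintype F] [hT : T.Normal] (hm : 3 ≤ m) (e : T ≃* PSp m F) (g : G) :
    ∃ M : Semi F (Fin m ⊕ Fin m → F), Induces (prS e) M g := by
  let α : MulAut (PSp m F) := (MulAut.congr e) (MulAut.conjNormal g)
  obtain ⟨s, hs⟩ := ClassicalGeometry.SympAutExists.exists_semi (by omega) α
    (ClassicalGeometry.SympAutOddA.recog (by omega) (Or.inl hm) α)
  obtain ⟨φ, l, hl, h1, h2, h3⟩ := s.2
  have hM : s.1 ∈ Semi F (Fin m ⊕ Fin m → F) := ⟨φ, h1, h2⟩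
  have hα : ∀ t : T, α (e t) = e (MulAut.conjNormal g t) := by
    intro t
    change e (MulAut.conjNormal g (e.symm (e t))) = _
    rw [MulEquiv.symm_apply_apply]
  have hcj : ∀ (A : symplecticGroup (Fin m) F) (v : Fin m ⊕ Fin m → F),
      (spE (conjHom m F s A)).1 (s.1 v) = s.1 ((spE A).1 v) := by
    intro A v
    have h4 := rho_conjHom s A
    have h5 := congrArg (fun z : Equiv.Perm (Fin m ⊕ Fin m → F) => z (s.1 v)) h4
    have h6 : (s.1 * rho m F A * s.1⁻¹) (s.1 v) = s.1 ((spE A).1 v) := by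
      rw [Equiv.Perm.mul_apply, Equiv.Perm.mul_apply, perm_inv_apply_self]
      rfl
    exact h5.trans h6
  refine ⟨⟨s.1, hM⟩, fun x => ⟨spE (conjHom m F s (spE.symm x)), fun v => ?_⟩, fun x y hxy => ?_⟩
  · change (spE (conjHom m F s (spE.symm x))).1 (s.1 v) = s.1 (x.1 v)
    rw [hcj, MulEquiv.apply_symm_apply]
  · have hy : y = spE (conjHom m F s (spE.symm x)) := by
      apply Subtype.ext
      apply LinearEquiv.ext
      intro v
      obtain ⟨v, rfl⟩ := s.1.surjective v
      have h4 : y.1 (s.1 v) = s.1 (x.1 v) := hxy v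
      rw [h4, hcj, MulEquiv.apply_symm_apply]
    have h5 : prS e y = MulAut.conjNormal g (prS e x) := by
      apply e.injective
      rw [← hα, prS_apply, prS_apply, MulEquiv.apply_symm_apply, MulEquiv.apply_symm_apply, hy, MulEquiv.symm_apply_apply,
        ← hs, Psi_mk]
    rw [h5, MulAut.conjNormal_apply]

/-- **the realisation of `T`** -/
noncomputable def real [Fintype F] [T.Normal] (hm : 3 ≤ m) (e : T ≃* PSp m F) : Real T (Isos (sympBilin m F)) where
  π := prS e
  surj := prS_surjective e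
  ker := fun _ h => prS_eq_one h
  ind := induces hm e
  comm := comm_scalar hm

theorem card_comap_of_surj {A C : Type*} [Group A] [Group C] {f : A →* C} (K : Subgroup C) (hf : Function.Surjective f) :
    Nat.card (K.comap f) = Nat.card K * Nat.card f.ker := by
  have h1 := Subgroup.relIndex_ker f (K := K.comap f)
  rw [Subgroup.map_comap_eq_self_of_surjective hf] at h1
  have h2 : Nat.card (f.ker.subgroupOf (K.comap f)) * f.ker.relIndex (K.comap f) = Nat.card (K.comap f) :=
    Subgroup.card_mul_index _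
  have hle : f.ker ≤ K.comap f := fun x hx => by
    rw [Subgroup.mem_comap, MonoidHom.mem_ker.1 hx]
    exact K.one_mem
  rw [← h2, h1, Nat.card_congr (Subgroup.subgroupOfEquivOfLe hle).toEquiv, mul_comm]

/-- **the preimage of `X ∩ T`** in `Sp` -/
noncomputable def preS (e : T ≃* PSp m F) (X : Subgroup G) : Subgroup ((Fin m ⊕ Fin m → F) ≃ₗ[F] (Fin m ⊕ Fin m → F)) :=
  ((X.subgroupOf T).comap (prS e)).map (Isos (sympBilin m F)).subtype

variable {e : T ≃* PSp m F} {X : Subgroup G}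

theorem mem_preS {x : Isos (sympBilin m F)} : x.1 ∈ preS e X ↔ (prS e x : G) ∈ X := by
  rw [preS, Subgroup.mem_map]
  constructor
  · rintro ⟨y, hy, h⟩
    have : y = x := Subtype.ext h
    rw [← this]; exact hy
  · intro h
    exact ⟨x, h, rfl⟩

theorem preS_le : preS e X ≤ Isos (sympBilin m F) := Subgroup.map_subtype_le _

theorem not_le_preS (hT : ¬ T ≤ X) : ¬ Isos (sympBilin m F) ≤ preS e X := by
  intro h
  apply hT
  intro t ht
  obtain ⟨x, hx⟩ := prS_surjective e ⟨t, ht⟩
  have h1 := mem_preS.1 (h x.2)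
  rw [hx] at h1
  exact h1

theorem card_preS (e : T ≃* PSp m F) (X : Subgroup G) : Nat.card (preS e X) =
    Nat.card (X.subgroupOf T) * Nat.card (prS e).ker := by
  rw [preS, Subgroup.card_map_of_injective (Isos (sympBilin m F)).subtype_injective]
  exact card_comap_of_surj (X.subgroupOf T) (prS_surjective e)

theorem inv0_iff' [Fintype F] [T.Normal] (hm : 3 ≤ m) {W : Submodule F (Fin m ⊕ Fin m → F)} :
    (real hm e).Inv0 X W ↔ ∀ x ∈ preS e X, ∀ w ∈ W, x w ∈ W := by
  rw [Real.inv0_iff]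
  constructor
  · intro h x hx
    exact h ⟨x, preS_le hx⟩ ((mem_preS (x := ⟨x, preS_le hx⟩)).1 hx)
  · intro h x hx
    exact h x.1 (mem_preS.2 hx)

/-- the kernel of the projection has order at most two -/
theorem card_ker (hm : 1 ≤ m) [Finite F] (e : T ≃* PSp m F) : Nat.card (prS e).ker ∣ 2 := by
  have : Fintype F := Fintype.ofFinite F
  have h1 : (prS e).ker = (Subgroup.center (symplecticGroup (Fin m) F)).comap (spE (F := F) (m := m)).symm.toMonoidHom := by
    ext x
    rw [MonoidHom.mem_ker, prS_apply, EmbeddingLike.map_eq_one_iff, QuotientGroup.eq_one_iff]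
    rfl
  have h2 : Nat.card (Subgroup.center (symplecticGroup (Fin m) F)) = Nat.card (prS e).ker := by
    rw [h1, card_comap_of_surj _ (MulEquiv.surjective (spE (F := F) (m := m)).symm)]
    have h3 : Nat.card ((spE (F := F) (m := m)).symm.toMonoidHom).ker = 1 := by
      rw [(MonoidHom.ker_eq_bot_iff _).2 (MulEquiv.injective (spE (F := F) (m := m)).symm), Subgroup.card_bot]
    change _ = _ * Nat.card ((spE (F := F) (m := m)).symm.toMonoidHom).ker
    rw [h3, mul_one]
  rw [← h2, LieClassical.SympCenter.card_center hm]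
  exact Nat.gcd_dvd_left _ _

/-- lifting of elements of odd order -/
theorem exists_lift [Finite F] (hm : 1 ≤ m) (t : T) (ht : (t : G) ∈ X) (hodd : Odd (orderOf t)) :
    ∃ x : Isos (sympBilin m F), x.1 ∈ preS e X ∧ prS e x = t ∧ orderOf x.1 = orderOf t := by
  obtain ⟨y, hy⟩ := prS_surjective e t
  obtain ⟨k, hk⟩ := hodd
  -- `y ^ (n + 1)`
  have h1 : ∀ z : Isos (sympBilin m F), prS e z = 1 → z ^ 2 = 1 := fun z hz => by
    obtain ⟨a, ha⟩ := prS_eq_one hz
    exact sq_one_of_scalar hm ha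
  have h2 : prS e (y ^ (orderOf t + 1)) = t := by rw [map_pow, hy, pow_succ, pow_orderOf_eq_one, one_mul]
  have h3 : (y ^ (orderOf t + 1)) ^ orderOf t = 1 := by
    have e1 : y ^ orderOf t ∈ (prS e).ker := by rw [MonoidHom.mem_ker, map_pow, hy, pow_orderOf_eq_one]
    have e2 := h1 _ e1
    rw [← pow_mul, mul_comm, pow_mul, hk, show 2 * k + 1 + 1 = 2 * (k + 1) by ring, pow_mul]
    rw [hk] at e2
    rw [e2, one_pow]
  refine ⟨y ^ (orderOf t + 1), ?_, h2, ?_⟩
  · rw [mem_preS, h2]; exact ht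
  · rw [Subgroup.orderOf_coe]
    apply Nat.dvd_antisymm
    · exact orderOf_dvd_of_pow_eq_one h3
    · conv_lhs => rw [← h2]
      exact orderOf_map_dvd _ _

/-- an element of order `r` of the preimage -/
theorem exists_prime [Finite G] [Finite F] (hm : 1 ≤ m) {r : ℕ} (hr : r.Prime) (hr2 : r ≠ 2) (h : r ∣ Nat.card (X.subgroupOf T)) :
    ∃ x ∈ preS e X, orderOf x = r := by
  have := Fact.mk hr
  obtain ⟨t, ht⟩ := exists_prime_orderOf_dvd_card' r h
  have ht' : orderOf (t : T) = r := by rw [Subgroup.orderOf_coe]; exact ht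
  obtain ⟨x, hx, -, ho⟩ := exists_lift (e := e) hm (t : T) t.2 (by rw [ht']; exact hr.odd_of_ne_two hr2)
  exact ⟨x.1, hx, ho.trans ht'⟩

/-- an element of order `r ^ a` of the preimage -/
theorem exists_pow [Finite G] [Finite F] (hm : 1 ≤ m) {r a : ℕ} (hr : r.Prime) (hr2 : r ≠ 2)
    (hcyc : ∀ P : Subgroup T, IsPGroup r P → IsCyclic P) (h : r ^ a ∣ Nat.card (X.subgroupOf T)) :
    ∃ x ∈ preS e X, orderOf x = r ^ a := by
  have := Fact.mk hr
  obtain ⟨S⟩ : Nonempty (Sylow r (X.subgroupOf T)) := inferInstance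
  have hc : IsCyclic ((S : Subgroup (X.subgroupOf T)).map (X.subgroupOf T).subtype) := hcyc _ (S.2.map _)
  have hcS : IsCyclic S := isCyclic_of_surjective
    ((S : Subgroup (X.subgroupOf T)).equivMapOfInjective (X.subgroupOf T).subtype (Subgroup.subtype_injective _)).symm.toMonoidHom
    (MulEquiv.surjective _)
  obtain ⟨s, hs⟩ := IsCyclic.exists_generator (α := S)
  have hos : orderOf s = Nat.card S := by
    rw [← Nat.card_zpowers]
    have : Subgroup.zpowers s = ⊤ := by
      rw [eq_top_iff]; intro z _; exact hs z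
    rw [this, Subgroup.card_top]
  obtain ⟨c, hc⟩ : r ^ a ∣ Nat.card S := S.pow_dvd_card_of_pow_dvd_card h
  have hpos : 0 < Nat.card S := Nat.card_pos
  have hc0 : c ≠ 0 := by rintro rfl; omega
  -- an element of order `r ^ a`
  have hot : orderOf ((((s ^ c : S) : X.subgroupOf T) : T)) = r ^ a := by
    rw [Subgroup.orderOf_coe, Subgroup.orderOf_coe, orderOf_pow_of_dvd hc0 (by rw [hos, hc]; exact Dvd.intro_left _ rfl), hos, hc,
      Nat.mul_div_cancel _ (Nat.pos_of_ne_zero hc0)]
  obtain ⟨x, hx, -, ho⟩ := exists_lift (e := e) (X := X) hm ((((s ^ c : S) : X.subgroupOf T) : T)) ((s ^ c : S) : X.subgroupOf T).2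
    (by rw [hot]; exact (hr.odd_of_ne_two hr2).pow)
  exact ⟨x.1, hx, ho.trans hot⟩

/-- no nonscalar element of the preimage of `X` is conjugate to an element of the preimage of `Y` -/
theorem not_conj [Finite G] {Y : Subgroup G} (hf : Fac T X Y) {x : (Fin m ⊕ Fin m → F) ≃ₗ[F] (Fin m ⊕ Fin m → F)}
    (hx : x ∈ preS e X) {g : (Fin m ⊕ Fin m → F) ≃ₗ[F] (Fin m ⊕ Fin m → F)} (hg : g ∈ Isos (sympBilin m F))
    (h : g * x * g⁻¹ ∈ preS e Y) : ∃ a : F, ∀ v, x v = a • v := by
  obtain ⟨x', rfl⟩ : ∃ x' : Isos (sympBilin m F), x'.1 = x := ⟨⟨x, preS_le hx⟩, rfl⟩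
  obtain ⟨g', rfl⟩ : ∃ g' : Isos (sympBilin m F), g'.1 = g := ⟨⟨g, hg⟩, rfl⟩
  have h1 : (prS e x' : G) ∈ X := mem_preS.1 hx
  have h0 : (g' * x' * g'⁻¹ : Isos (sympBilin m F)).1 ∈ preS e Y := h
  have h2 : (prS e (g' * x' * g'⁻¹) : G) ∈ Y := mem_preS.1 h0
  have h3 : (prS e (g' * x' * g'⁻¹) : G) = (prS e g' : G) * (prS e x' : G) * (prS e g' : G)⁻¹ := by
    rw [map_mul, map_mul, map_inv]
    rfl
  rw [h3] at h2
  have h4 := hf.not_conj h1 (prS e g' : G) h2
  exact prS_eq_one (e := e) (x := x') (Subtype.ext h4)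

/-- `Sp` is transitive on nonzero vectors -/
theorem trans_vec {x y : Fin m ⊕ Fin m → F} (hx : x ≠ 0) (hy : y ≠ 0) : ∃ g ∈ Isos (sympBilin m F), g x = y := by
  obtain ⟨A, -, hA⟩ := exists_transvGroup_mulVec_eq hx hy
  exact ⟨(spE A).1, (spE A).2, hA⟩

/-- `Sp` is transitive on hyperbolic pairs -/
theorem trans_hyp {u v u' v' : Fin m ⊕ Fin m → F} (h : sympForm m F u v = 1) (h' : sympForm m F u' v' = 1) :
    ∃ g ∈ Isos (sympBilin m F), g u = u' ∧ g v = v' := by
  obtain ⟨A, -, hA, hA'⟩ := exists_transvGroup_hyperbolic h h'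
  exact ⟨(spE A).1, (spE A).2, hA, hA'⟩

end frame

end Cfsg.Agent.H925.Rs
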