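import Cfsg.Agent.H925.Rs.Frame
import Cfsg.Agent.H727.GW.Isom

/-!
# S3691: the two factors in the isometry group of an alternating form (helper925)

* `Pair B p f m A C` : the numerical and geometric facts on the preimages `A`, `C` of the two factors
* these facts are proved for the factors of a group with socle `PSp_2m(q)` in `H925/Rs/PairFac.lean`
-/

set_option autoImplicit false
set_option linter.unusedSectionVars false

namespace Cfsg.Agent.H925.Rs

open Cfsg Matrix Module Subgroup Cfsg.Agent.H454.Reg Cfsg.Agent.H449.Reg Cfsg.Agent.ClassicalGeometry.SympBasic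
  Cfsg.Agent.ClassicalGeometry.SympAutSemi

universe u v w

/-- **the preimages of the two factors** -/
structure Pair {F : Type v} [Field F] {V : Type w} [AddCommGroup V] [Module F V] (B : LinearMap.BilinForm F V) (p f m : ℕ)
    (A C : Subgroup (V ≃ₗ[F] V)) : Prop where
  prime : p.Prime
  hf : 1 ≤ f
  card : Nat.card F = p ^ f
  dim : finrank F V = 2 * m
  alt : ∀ x, B x x = 0
  nondeg : ∀ x, (∀ y, B x y = 0) → x = 0
  leA : A ≤ Isos B
  leC : C ≤ Isos B
  neA : ¬ Isos B ≤ A
  neC : ¬ Isos B ≤ C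
  conj : ∀ x ∈ A, ∀ g ∈ Isos B, g * x * g⁻¹ ∈ C → ∃ a : F, ∀ v, x v = a • v
  val : ∀ r : ℕ, r.Prime → r ≠ 2 → ¬ r ∣ f →
    (Nat.card A).factorization r + (Nat.card C).factorization r = (Nat.card (Isos B)).factorization r
  valp : (Nat.card (Isos B)).factorization p ≤ (Nat.card A).factorization p + (Nat.card C).factorization p + f.factorization p
  valp' : (Nat.card A).factorization p + (Nat.card C).factorization p ≤ (Nat.card (Isos B)).factorization p
  dvd : Nat.card A * Nat.card C ∣ 2 * Nat.card (Isos B)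

/-- **the group induced by `C` on `S^⊥ / S` is everything**, `S` a `C`-invariant point or nondegenerate plane -/
structure Full {F : Type v} [Field F] {V : Type w} [AddCommGroup V] [Module F V] (B : LinearMap.BilinForm F V)
    (C : Subgroup (V ≃ₗ[F] V)) (S : Submodule F V) : Prop where
  inv : ∀ c ∈ C, ∀ w ∈ S, c w ∈ S
  dim : finrank F S = 1 ∨ (finrank F S = 2 ∧ ∀ s ∈ S, s ≠ 0 → ∃ t ∈ S, B s t ≠ 0)
  full : ∀ y ∈ Isos B, (∀ w ∈ S, y w ∈ S) → ∃ c ∈ C, ∀ u, (∀ s ∈ S, B u s = 0) → c u - y u ∈ S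

section gen

variable {F : Type v} [Field F] {V : Type w} [AddCommGroup V] [Module F V] {B : LinearMap.BilinForm F V} {p f m : ℕ}
    {A C : Subgroup (V ≃ₗ[F] V)}

theorem inv_conj_scalar {x g : V ≃ₗ[F] V} {a : F} (h : ∀ v, x v = a • v) : ∀ v, (g * x * g⁻¹) v = a • v := by
  intro v
  change g (x (g⁻¹ v)) = _
  rw [h, map_smul]
  congr 1
  exact g.apply_symm_apply v

theorem Pair.symm (h : Pair B p f m A C) : Pair B p f m C A where
  prime := h.prime
  hf := h.hf
  card := h.card
  dim := h.dim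
  alt := h.alt
  nondeg := h.nondeg
  leA := h.leC
  leC := h.leA
  neA := h.neC
  neC := h.neA
  conj := by
    intro x hx g hg hgx
    have h1 : g⁻¹ * (g * x * g⁻¹) * g⁻¹⁻¹ = x := by group
    obtain ⟨a, ha⟩ := h.conj _ hgx g⁻¹ ((Isos B).inv_mem hg) (by rw [h1]; exact hx)
    refine ⟨a, fun v => ?_⟩
    have h2 := inv_conj_scalar (g := g⁻¹) ha v
    rwa [h1] at h2
  val := fun r hr h2 hf => by rw [add_comm]; exact h.val r hr h2 hf
  valp := by have := h.valp; omega
  valp' := by have := h.valp'; omega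
  dvd := by rw [mul_comm]; exact h.dvd

theorem nondeg_of (hB : ∀ x, B x x = 0) (hnd : ∀ x, (∀ y, B x y = 0) → x = 0) : B.Nondegenerate := by
  have hsw : ∀ x y, B x y = - B y x := by
    intro x y
    have h1 := hB (x + y)
    simp only [map_add, LinearMap.add_apply, hB, zero_add, add_zero] at h1
    linear_combination h1
  refine ⟨hnd, fun x hx => hnd x fun y => ?_⟩
  rw [hsw, hx, neg_zero]

theorem card_Isos [Fintype F] [FiniteDimensional F V] (hB : ∀ x, B x x = 0) (hnd : ∀ x, (∀ y, B x y = 0) → x = 0)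
    (hr : finrank F V = 2 * m) :
    Nat.card (Isos B) = Fintype.card F ^ (m ^ 2) * ∏ i ∈ Finset.range m, (Fintype.card F ^ (2 * (i + 1)) - 1) :=
  H727.GW.card_isomGroup B hB hnd hr

end gen

end Cfsg.Agent.H925.Rs
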